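import Cfsg.Agent.H670.Reg.Defs
import Cfsg.Agent.H477.HC.Small
import Cfsg.Agent.H477.HC.SpSix
import Cfsg.Agent.H600.AltRow
import Cfsg.Agent.H678.DG.Mathieu

/-!
# Kites (S4919, KFOUR-C, helper679 for helper670)

`Kite` for `PSp4(4)`, `PSp4(5)`, `PSp4(7)`, `PSp4(9)`, `PSp6(2)`, `PΩ8⁺(2)`, `A7`, `A8`, `A9`, `A10`, `M12`.
-/

set_option autoImplicit false

namespace Cfsg.Agent.H679.Reg

open Cfsg Cfsg.Agent.H671.H5 Cfsg.Agent.H670.Reg Cfsg.Agent.H477.HC

universe u v

theorem Kite.congr {S : Type u} {S' : Type v} [Group S] [Group S'] (e : S ≃* S') (h : Kite S') : Kite S := by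
  have key : ∀ {a b : ℕ}, Adj a b S' → Adj a b S := fun {a b} h => (H600.AltDeg.adj_congr e).2 h
  rcases h with ⟨u, v, w, z, h0, h1, h2, h3, h4, h5⟩ | ⟨u, a, b, c, d, h1, h2, h3, h4, h5, h6, h7, h8, h9, h10⟩
  · exact Or.inl ⟨u, v, w, z, h0, key h1, key h2, key h3, key h4, key h5⟩
  · exact Or.inr ⟨u, a, b, c, d, h1, h2, h3, h4, h5, h6, key h7, key h8, key h9, key h10⟩

/-- two triangles with a common edge -/
theorem Kite.mk {S : Type u} [Group S] (u v w z : ℕ) (h0 : w ≠ z) (h1 : Adj u v S) (h2 : Adj u w S) (h3 : Adj v w S)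
    (h4 : Adj u z S) (h5 : Adj v z S) : Kite S := Or.inl ⟨u, v, w, z, h0, h1, h2, h3, h4, h5⟩

/-! ### symplectic groups of dimension four -/

theorem card_psp_two (F : Type) [Field F] [Fintype F] :
    Nat.gcd 2 (Fintype.card F - 1) * Nat.card (PSp 2 F) =
      Fintype.card F ^ 4 * ((Fintype.card F ^ 2 - 1) * (Fintype.card F ^ 4 - 1)) := by
  have h3 := Subgroup.card_mul_index (Subgroup.center ↥(Matrix.symplecticGroup (Fin 2) F))
  rw [LieClassical.SympCenter.card_center (by norm_num), LieClassical.SympCount.card_symplecticGroup] at h3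
  change _ * Nat.card (PSp 2 F) = _ at h3
  simpa [Finset.prod_range_succ] using h3

theorem char_eq {F : Type} [Field F] [Fintype F] {p n : ℕ} (hp : p.Prime) (hF : Fintype.card F = p ^ n) : CharP F p := by
  obtain ⟨r, hr⟩ := CharP.exists F
  have hrp : r.Prime := CharP.char_is_prime F r
  have : Fact r.Prime := ⟨hrp⟩
  obtain ⟨k, hk, h⟩ := FiniteField.card F r
  rw [hF] at h
  have h1 : r ∣ p ^ n := by rw [h]; exact dvd_pow_self r k.ne_zero
  have h2 := (Nat.prime_dvd_prime_iff_eq hrp hp).1 (hrp.dvd_of_dvd_pow h1)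
  rwa [← h2]

/-- the rank three characters -/
theorem chars_two (F : Type) [Field F] [Fintype F] {q a b : ℕ} (hF : Fintype.card F = q)
    (ha : 2 * ((q : ℤ) - 1) * a = q * ((q : ℤ) ^ 2 - 1) * ((q : ℤ) + 1))
    (hb : 2 * ((q : ℤ) - 1) * b = q * ((q : ℤ) ^ 2 + 1) * ((q : ℤ) - 1)) (hq : 2 ≤ q) :
    Ch (PSp 2 F) a ∧ Ch (PSp 2 F) b := by
  obtain ⟨χ₁, χ₂, f, g, h1, h2, h3, h4, h5, h6⟩ := H677.SpRank.exists_chars (F := F) (m := 2) (by norm_num)
  rw [Nat.card_eq_fintype_card, hF] at h5 h6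
  have h0 : 2 * ((q : ℤ) - 1) ≠ 0 := by
    have : (2 : ℤ) ≤ q := by exact_mod_cast hq
    omega
  have e1 : (f : ℤ) = a := by
    apply mul_left_cancel₀ h0
    rw [h5, ha]
    norm_num
  have e2 : (g : ℤ) = b := by
    apply mul_left_cancel₀ h0
    rw [h6, hb]
    norm_num
  have e1' : f = a := by exact_mod_cast e1
  have e2' : g = b := by exact_mod_cast e2
  subst e1'
  subst e2'
  exact ⟨⟨χ₁, h1, h3⟩, ⟨χ₂, h2, h4⟩⟩

theorem np_two {F : Type} [Field F] [Fintype F] {p n : ℕ} (hp : p.Prime) (hF : Fintype.card F = p ^ n)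
    (h3 : 3 ≤ Fintype.card F) : Np p (PSp 2 F) := by
  have : Fact p.Prime := ⟨hp⟩
  have := char_eq hp hF
  exact sp_np (K := F) le_rfl (fun _ => h3) tsp62 (fun h => by omega)

/-- `PSp4(4)` -/
theorem kite_psp44 (F : Type) [Field F] [Fintype F] (hF : Fintype.card F = 4) : Kite (PSp 2 F) := by
  have hn := np_two (F := F) (p := 2) (n := 2) (by norm_num) (by rw [hF]; norm_num) (by omega)
  have hc := card_psp_two F
  rw [hF] at hc
  norm_num at hc
  obtain ⟨h1, h2⟩ := chars_two F (a := 50) (b := 34) hF (by norm_num) (by norm_num) (by norm_num)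
  exact Kite.mk 5 17 2 3 (by norm_num)
    (hn 5 17 (by norm_num) (by norm_num) (by norm_num) (by norm_num) (by norm_num) (by rw [hc]; norm_num)
      (by rw [hc]; norm_num))
    (adj_of_ch h1 (by norm_num) (by norm_num) (by norm_num) (by norm_num) (by norm_num))
    (adj_of_ch h2 (by norm_num) (by norm_num) (by norm_num) (by norm_num) (by norm_num))
    (hn 5 3 (by norm_num) (by norm_num) (by norm_num) (by norm_num) (by norm_num) (by rw [hc]; norm_num)
      (by rw [hc]; norm_num))
    (hn 17 3 (by norm_num) (by norm_num) (by norm_num) (by norm_num) (by norm_num) (by rw [hc]; norm_num)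
      (by rw [hc]; norm_num))

/-- `PSp4(5)` -/
theorem kite_psp45 (F : Type) [Field F] [Fintype F] (hF : Fintype.card F = 5) : Kite (PSp 2 F) := by
  have hn := np_two (F := F) (p := 5) (n := 1) (by norm_num) (by rw [hF]; norm_num) (by omega)
  have hc := card_psp_two F
  rw [hF] at hc
  norm_num at hc
  have hc' : Nat.card (PSp 2 F) = 4680000 := by omega
  obtain ⟨h1, h2⟩ := chars_two F (a := 90) (b := 65) hF (by norm_num) (by norm_num) (by norm_num)
  exact Kite.mk 2 3 5 13 (by norm_num)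
    (hn 2 3 (by norm_num) (by norm_num) (by norm_num) (by norm_num) (by norm_num) (by rw [hc']; norm_num)
      (by rw [hc']; norm_num))
    (adj_of_ch h1 (by norm_num) (by norm_num) (by norm_num) (by norm_num) (by norm_num))
    (adj_of_ch h1 (by norm_num) (by norm_num) (by norm_num) (by norm_num) (by norm_num))
    (hn 2 13 (by norm_num) (by norm_num) (by norm_num) (by norm_num) (by norm_num) (by rw [hc']; norm_num)
      (by rw [hc']; norm_num))
    (hn 3 13 (by norm_num) (by norm_num) (by norm_num) (by norm_num) (by norm_num) (by rw [hc']; norm_num)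
      (by rw [hc']; norm_num))

/-- `PSp4(7)` -/
theorem kite_psp47 (F : Type) [Field F] [Fintype F] (hF : Fintype.card F = 7) : Kite (PSp 2 F) := by
  have hn := np_two (F := F) (p := 7) (n := 1) (by norm_num) (by rw [hF]; norm_num) (by omega)
  have hc := card_psp_two F
  rw [hF] at hc
  norm_num at hc
  have hc' : Nat.card (PSp 2 F) = 138297600 := by omega
  obtain ⟨h1, h2⟩ := chars_two F (a := 224) (b := 175) hF (by norm_num) (by norm_num) (by norm_num)
  exact Kite.mk 2 5 7 3 (by norm_num)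
    (hn 2 5 (by norm_num) (by norm_num) (by norm_num) (by norm_num) (by norm_num) (by rw [hc']; norm_num)
      (by rw [hc']; norm_num))
    (adj_of_ch h1 (by norm_num) (by norm_num) (by norm_num) (by norm_num) (by norm_num))
    (adj_of_ch h2 (by norm_num) (by norm_num) (by norm_num) (by norm_num) (by norm_num))
    (hn 2 3 (by norm_num) (by norm_num) (by norm_num) (by norm_num) (by norm_num) (by rw [hc']; norm_num)
      (by rw [hc']; norm_num))
    (hn 5 3 (by norm_num) (by norm_num) (by norm_num) (by norm_num) (by norm_num) (by rw [hc']; norm_num)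
      (by rw [hc']; norm_num))

/-- `PSp4(9)` -/
theorem kite_psp49 (F : Type) [Field F] [Fintype F] (hF : Fintype.card F = 9) : Kite (PSp 2 F) := by
  have hn := np_two (F := F) (p := 3) (n := 2) (by norm_num) (by rw [hF]; norm_num) (by omega)
  have hc := card_psp_two F
  rw [hF] at hc
  norm_num at hc
  have hc' : Nat.card (PSp 2 F) = 1721606400 := by omega
  obtain ⟨h1, h2⟩ := chars_two F (a := 450) (b := 369) hF (by norm_num) (by norm_num) (by norm_num)
  exact Kite.mk 2 5 3 41 (by norm_num)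
    (hn 2 5 (by norm_num) (by norm_num) (by norm_num) (by norm_num) (by norm_num) (by rw [hc']; norm_num)
      (by rw [hc']; norm_num))
    (adj_of_ch h1 (by norm_num) (by norm_num) (by norm_num) (by norm_num) (by norm_num))
    (adj_of_ch h1 (by norm_num) (by norm_num) (by norm_num) (by norm_num) (by norm_num))
    (hn 2 41 (by norm_num) (by norm_num) (by norm_num) (by norm_num) (by norm_num) (by rw [hc']; norm_num)
      (by rw [hc']; norm_num))
    (hn 5 41 (by norm_num) (by norm_num) (by norm_num) (by norm_num) (by norm_num) (by rw [hc']; norm_num)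
      (by rw [hc']; norm_num))

/-- `PSp6(2)` -/
theorem kite_psp62 (F : Type) [Field F] [Fintype F] (hF : Fintype.card F = 2) : Kite (PSp 3 F) := by
  obtain ⟨d, hd, h⟩ := tsp62 F hF
  have key : ∀ {m : ℕ}, m ∣ 210 → m ∣ d := fun h => h.trans hd
  exact Kite.mk 2 3 5 7 (by norm_num)
    (adj_of_ch h (by norm_num) (by norm_num) (by norm_num) (key (by norm_num)) (key (by norm_num)))
    (adj_of_ch h (by norm_num) (by norm_num) (by norm_num) (key (by norm_num)) (key (by norm_num)))
    (adj_of_ch h (by norm_num) (by norm_num) (by norm_num) (key (by norm_num)) (key (by norm_num)))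
    (adj_of_ch h (by norm_num) (by norm_num) (by norm_num) (key (by norm_num)) (key (by norm_num)))
    (adj_of_ch h (by norm_num) (by norm_num) (by norm_num) (key (by norm_num)) (key (by norm_num)))

/-- `PΩ8⁺(2)` -/
theorem kite_o8p2 (F : Type) [Field F] [Fintype F] (hF : Fintype.card F = 2) : Kite (POmega F (quadFormPlus 4 F)) := by
  have : Fact (Nat.Prime 2) := ⟨Nat.prime_two⟩
  have := char_eq (F := F) (p := 2) (n := 1) Nat.prime_two (by rw [hF]; norm_num)
  obtain ⟨d, hd, hd', -⟩ := plus_ch_top F (p := 2) (m := 4) le_rfl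
  obtain ⟨a, b, h1, h2, h3, h4⟩ := rk3_plus F (m := 4) le_rfl
  rw [Nat.card_eq_fintype_card, hF] at h3 h4 hd'
  norm_num at h3 h4
  have ha : a = 50 := by omega
  have hb : b = 84 := by omega
  subst ha
  subst hb
  have k3 : 3 ∣ d := hd' 3 (by norm_num) (by norm_num) (Dvd.dvd.trans (by norm_num) (D1_idx (q := 2) (m := 4) (i := 1) (by omega)))
  have k5 : 5 ∣ d := hd' 5 (by norm_num) (by norm_num) (Dvd.dvd.trans (by norm_num) (D1_idx (q := 2) (m := 4) (i := 1) (by omega)))
  have k7 : 7 ∣ d := hd' 7 (by norm_num) (by norm_num) (Dvd.dvd.trans (by norm_num) (D1_idx (q := 2) (m := 4) (i := 2) (by omega)))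
  exact Kite.mk 3 7 5 2 (by norm_num)
    (adj_of_ch hd (by norm_num) (by norm_num) (by norm_num) k3 k7)
    (adj_of_ch hd (by norm_num) (by norm_num) (by norm_num) k3 k5)
    (adj_of_ch hd (by norm_num) (by norm_num) (by norm_num) k7 k5)
    (adj_of_ch h2 (by norm_num) (by norm_num) (by norm_num) (by norm_num) (by norm_num))
    (adj_of_ch h2 (by norm_num) (by norm_num) (by norm_num) (by norm_num) (by norm_num))

/-! ### alternating groups -/

section alt

open Cfsg.Agent.H614 Cfsg.Agent.H600.AltDeg Cfsg.Agent.Characters.Core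

theorem kite_alt7 : Kite (alternatingGroup (Fin 7)) :=
  Kite.mk 3 7 2 5 (by norm_num) adj_three_seven_s (H600.AltDeg.adj_symm adj_two_three_s)
    (H600.AltDeg.adj_symm adj_two_seven_s) adj_three_five_s (H600.AltDeg.adj_symm adj_five_seven_s)

/-- the beta-set `{1, 2, 4, 7}` : degree 90 -/
theorem adj_three_five_e : Adj 3 5 (alternatingGroup (Fin 8)) := by
  have : Nontrivial (Fin 8) := Fin.nontrivial_iff_two_le.2 (by norm_num)
  have hγ : StrictMono (![1, 2, 4, 7] : Fin 4 → ℕ) := by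
    intro i j h
    fin_cases i <;> fin_cases j <;> simp_all
  have hs : ∑ i, (![1, 2, 4, 7] : Fin 4 → ℕ) i = Fintype.card (Fin 8) + ∑ i : Fin 4, (i : ℕ) := by
    simp [Fin.sum_univ_four]
  have hs' : ∑ i, (![1, 2, 4, 7] : Fin 4 → ℕ) i = 8 + ∑ i : Fin 4, (i : ℕ) := by
    simp [Fin.sum_univ_four]
  have hχ := isIrr_ch (α := Fin 8) hγ hs
  have h90 : FM (Multiset.replicate 8 1) (![1, 2, 4, 7] : Fin 4 → ℕ) = 90 := by
    have h1 := FM_ones_formula 8 (![1, 2, 4, 7] : Fin 4 → ℕ) hs'
    have e1 : ∏ i : Fin 4, (((![1, 2, 4, 7] : Fin 4 → ℕ) i).factorial : ℤ) = 241920 := by decide +kernel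
    have e2 : ((Nat.factorial 8 : ℕ) : ℤ) * ∏ i : Fin 4, ∏ j ∈ Finset.Ioi i, (((![1, 2, 4, 7] : Fin 4 → ℕ) j : ℤ) -
        (![1, 2, 4, 7] : Fin 4 → ℕ) i) = 90 * 241920 := by decide +kernel
    rw [e1, e2] at h1
    exact mul_right_cancel₀ (by norm_num) h1
  have hone : ch (Fin 8) (![1, 2, 4, 7] : Fin 4 → ℕ) 1 = 90 := by
    rw [ch_apply, ty_one, Fintype.card_fin, h90]
    norm_num
  obtain ⟨θ, hθ⟩ := exists_constituent (alternatingGroup (Fin 8)) hχ
  have hdeg : (θ : alternatingGroup (Fin 8) → ℂ) 1 = (charDegree (θ : alternatingGroup (Fin 8) → ℂ) : ℂ) := by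
    obtain ⟨k, -, hk⟩ := isIrr_apply_one θ.2
    rw [H670.PSing.charDegree_eq_of hk, hk]
  have h15 : 3 * 5 ∣ charDegree (θ : alternatingGroup (Fin 8) → ℂ) := by
    rcases restrict_two (alternatingGroup (Fin 8)) alternatingGroup.index_eq_two hχ θ.2 hθ with h | ⟨h, -⟩
    · have h2 := h 1
      rw [OneMemClass.coe_one, hone, hdeg] at h2
      have h3 : 90 = charDegree (θ : alternatingGroup (Fin 8) → ℂ) := by exact_mod_cast h2
      rw [← h3]
      norm_num
    · rw [hone, hdeg] at h
      have h3 : 90 = 2 * charDegree (θ : alternatingGroup (Fin 8) → ℂ) := by exact_mod_cast h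
      omega
  exact adj_of_char Nat.prime_three Nat.prime_five (by norm_num) ⟨θ, h15⟩

theorem kite_alt8 : Kite (alternatingGroup (Fin 8)) :=
  Kite.mk 5 7 2 3 (by norm_num) adj_five_seven_e (H600.AltDeg.adj_symm adj_two_five_e)
    (H600.AltDeg.adj_symm adj_two_seven_e) (H600.AltDeg.adj_symm adj_three_five_e)
    (H600.AltDeg.adj_symm adj_three_seven_e)

theorem kite_alt_ge {n : ℕ} (hn : 9 ≤ n) : Kite (alternatingGroup (Fin n)) :=
  Kite.mk 2 3 5 7 (by norm_num) (adj_two_three hn) (adj_two_five hn) (adj_three_five hn) (adj_two_seven hn)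
    (adj_three_seven hn)

/-- alternating groups of degree at least seven -/
theorem kite_alt {n : ℕ} (hn : 7 ≤ n) : Kite (alternatingGroup (Fin n)) := by
  rcases Nat.lt_or_ge n 9 with h | h
  · interval_cases n
    · exact kite_alt7
    · exact kite_alt8
  · exact kite_alt_ge h

end alt

/-! ### the Mathieu group `M12` -/

theorem adj_of_im {S : Type u} [Group S] {d r s : ℕ} (h : IM d S) (hr : r.Prime) (hs : s.Prime) (hrs : r ≠ s)
    (hd : r * s ∣ d) : Adj r s S := by
  obtain ⟨χ, hχ⟩ := h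
  exact adj_iff.2 ⟨hrs, hr, hs, χ, hd.trans hχ⟩

theorem kite_m12 {S : Type u} [Group S] (h : Cfsg.Spor.IsoM12 S) : Kite S := by
  obtain ⟨e⟩ := h
  have h12 : IsM12 Spor.M12 := ⟨CpAutTThree.MTwelve.simple, CpAutTThree.MTwelve.card⟩
  have hcard : Nat.card Spor.M12 = 95040 := h12.2
  have : Finite Spor.M12 := Nat.finite_of_card_ne_zero (by rw [hcard]; norm_num)
  refine Kite.congr e ?_
  obtain ⟨⟨d, ⟨χ, hχ⟩, hd⟩, ⟨d', ⟨χ', hχ'⟩, hd'⟩⟩ := H417.DegMTwelve.exists_both h12
  have h120 := H678.DG.Mathieu.exists_120 h12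
  have h55 : IM 55 Spor.M12 := ⟨χ, by rw [hχ]; exact hd⟩
  have h33 : IM 33 Spor.M12 := ⟨χ', by rw [hχ']; exact hd'⟩
  exact Kite.mk 3 5 2 11 (by norm_num)
    (adj_of_im h120 (by norm_num) (by norm_num) (by norm_num) (by norm_num))
    (adj_of_im h120 (by norm_num) (by norm_num) (by norm_num) (by norm_num))
    (adj_of_im h120 (by norm_num) (by norm_num) (by norm_num) (by norm_num))
    (adj_of_im h33 (by norm_num) (by norm_num) (by norm_num) (by norm_num))
    (adj_of_im h55 (by norm_num) (by norm_num) (by norm_num) (by norm_num))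

end Cfsg.Agent.H679.Reg
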