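import Cfsg.Agent.H679.Reg.Pts
import Cfsg.Agent.H679.Reg.JTwoData
import Cfsg.Agent.SporadicA.J2Hundred

/-!
# The Hall-Janko group has an irreducible character of degree 126 (helper679)

The action on the 280 subsets of size 10 (fixed points of the elements of class 3A); the orbital of valency 108.
-/

set_option autoImplicit false
set_option maxRecDepth 100000

namespace Cfsg.Agent.H679.Reg.JTwoDeg

open Cfsg Equiv Cfsg.Agent.SporadicA.PermTab Cfsg.Agent.SporadicA.J2Data Cfsg.Agent.SporadicA.J2Hundred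
open Cfsg.Agent.H679.Reg.JTwoData Cfsg.Agent.H678.DG.Blk

/-- the mask of the subset -/
def mk (x : ℕ) : ℕ := Nat.land (Nat.shiftRight SM (Nat.mul 100 x)) 1267650600228229401496703205375

/-- the tables -/
def PQ : List (ℕ × ℕ) := [(tA, qA), (tB, qB), (tC, qC), (tD, qD), (tE, qE)]

theorem c1 : allL (chkPQ 100 280 mk) PQ = true := by decide +kernel
theorem c2 : chkInj 280 100 mk = true := by decide +kernel

theorem hGT : ∀ g ∈ gens, ∃ pq ∈ PQ, ∀ i : Fin 100, ((g i : Fin 100) : ℕ) = lk pq.1 i := by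
  rintro g (rfl | rfl | rfl | rfl | rfl)
  · exact ⟨(tA, qA), by simp [PQ], fun i => mkPerm_val tA tA iA i⟩
  · exact ⟨(tB, qB), by simp [PQ], fun i => mkPerm_val tB tB iB i⟩
  · exact ⟨(tC, qC), by simp [PQ], fun i => mkPerm_val tC tC iC i⟩
  · exact ⟨(tD, qD), by simp [PQ], fun i => mkPerm_val tD tD iD i⟩
  · exact ⟨(tE, qE), by simp [PQ], fun i => mkPerm_val tE tE iE i⟩

theorem inj : ∀ x < 280, ∀ y < 280, Fm 100 mk x = Fm 100 mk y → x = y := inj_of_chk (N := 100) c2

theorem cl : ∀ g : G, ∀ x < 280, ∃ y < 280, g • Fm 100 mk x = Fm 100 mk y :=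
  closed (GT := gens) rfl (by
    intro g hgT hg x hx
    obtain ⟨pq, hpq, hgi⟩ := hGT g hgT
    obtain ⟨h7, h8⟩ := cor_of_chkPQ ((allL_iff _ _).1 c1 pq hpq) (⟨g, hg⟩ : G) hgi x hx
    exact ⟨_, h7, h8⟩) inj

/-- the action on the indices -/
theorem exists_phi : ∃ φ : G →* Perm (Fin 280), ∀ (g : G) (i : Fin 280), g • Fm 100 mk i = Fm 100 mk (φ g i : Fin 280) := by
  have h1 : ∀ (g : G) (i : Fin 280), ∃ j : Fin 280, g • Fm 100 mk i = Fm 100 mk j := fun g i => by
    obtain ⟨y, hy, h⟩ := cl g i i.2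
    exact ⟨⟨y, hy⟩, h⟩
  choose f hf using h1
  have hinj : ∀ i j : Fin 280, Fm 100 mk i = Fm 100 mk j → i = j := fun i j h => Fin.ext (inj i i.2 j j.2 h)
  have hmul : ∀ (g h : G) i, f (g * h) i = f g (f h i) := fun g h i => by
    apply hinj
    rw [← hf, mul_smul, hf h, hf g]
  have hone : ∀ i, f 1 i = i := fun i => by
    apply hinj
    rw [← hf, one_smul]
  refine ⟨{ toFun := fun g => ⟨f g, f g⁻¹, fun i => ?_, fun i => ?_⟩, map_one' := ?_, map_mul' := fun g h => ?_ },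
    fun g i => hf g i⟩
  · rw [← hmul, inv_mul_cancel, hone]
  · rw [← hmul, mul_inv_cancel, hone]
  · ext i
    exact congrArg Fin.val (hone i)
  · ext i
    exact congrArg Fin.val (hmul g h i)

/-- the generators -/
def gen : Fin 5 → G := ![⟨pA, mA⟩, ⟨pB, mB⟩, ⟨pC, mC⟩, ⟨pD, mD⟩, ⟨pE, mE⟩]

/-- the tables of the generators -/
def tb' : Fin 5 → ℕ := ![qA, qB, qC, qD, qE]

/-- the action of the generators -/
def act' (x : Fin 5) (i : ℕ) : ℕ := lk (tb' x) i

theorem hA {φ : G →* Perm (Fin 280)} (hφ : ∀ (g : G) (i : Fin 280), g • Fm 100 mk i = Fm 100 mk (φ g i : Fin 280))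
    (x : Fin 5) (i : Fin 280) : ((φ (gen x) i : Fin 280) : ℕ) = act' x i := by
  have key : ∀ (g : G) (pq : ℕ × ℕ), pq ∈ PQ → (∀ i : Fin 100, (((g : Perm (Fin 100)) i : Fin 100) : ℕ) = lk pq.1 i) →
      ((φ g i : Fin 280) : ℕ) = lk pq.2 i := by
    intro g pq hpq hg
    obtain ⟨h7, h8⟩ := cor_of_chkPQ ((allL_iff _ _).1 c1 pq hpq) g hg i i.2
    rw [hφ] at h8
    exact inj _ (φ g i).2 _ h7 h8
  unfold act'
  fin_cases x
  · exact key _ (tA, qA) (by simp [PQ]) (fun i => mkPerm_val tA tA iA i)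
  · exact key _ (tB, qB) (by simp [PQ]) (fun i => mkPerm_val tB tB iB i)
  · exact key _ (tC, qC) (by simp [PQ]) (fun i => mkPerm_val tC tC iC i)
  · exact key _ (tD, qD) (by simp [PQ]) (fun i => mkPerm_val tD tD iD i)
  · exact key _ (tE, qE) (by simp [PQ]) (fun i => mkPerm_val tE tE iE i)

/-- the roots -/
def bs : List ℕ := [1, 37, 145]

/-- words of the stabiliser -/
def KW : List (List (Fin 5)) := [[1], [2], [3]]

/-- sizes -/
def kk (j : ℕ) : ℕ := [1, 36, 108, 135].getD j 0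

/-- the collapsed matrix -/
def B (i j : ℕ) : ℕ := ([[0, 0, 108, 0], [0, 12, 36, 60], [1, 12, 40, 55], [0, 16, 44, 48]].getD i []).getD j 0

/-- transversal -/
def ga (i : ℕ) : List (Fin 5) := [[], [4], [4, 3, 2, 3, 1, 2, 3, 4], [4, 3, 2, 3, 4]].getD i []

theorem d1 : allL (H678.DG.Pts.chkW act' 280 bs) KW = true := by decide +kernel
theorem d2 : H678.DG.Pts.chkF act' 280 bs KW (lk PR) = true := by decide +kernel
theorem d3 : chkK 280 4 bs kk = true := by decide +kernel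
theorem d4 : H678.DG.Pts.chkB act' 280 4 2 bs ga B = true := by decide +kernel

theorem deg_126 : ∃ χ : IrrCharacter G, charDegree (χ : G → ℂ) = 126 := by
  obtain ⟨φ, hφ⟩ := exists_phi
  exact H679.Reg.Pts.deg_of_pts' φ gen act' (hA hφ) (KW := KW) (bs := bs) (pr := lk PR) (kk := kk) (γ := ga) (c₁ := 2) (B := B)
    (st := 2160) (by rw [card_G]) (by norm_num) (by norm_num) rfl (by norm_num) (by norm_num) (by decide +kernel) d1 d2 d3 d4
    (by decide +kernel) [1] 3 (by norm_num) (by decide +kernel) (by decide +kernel) (by decide +kernel) (by decide +kernel)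
    ![1, -1/9, 2/27, -1/27] 8
    ![![0, 0, 0, 0], ![1/900, -11/100, 3/25, 0], ![1/108, 0, 0, 0], ![-19/3375, 3/125, -1/125, 0]] 126
    rfl (by decide +kernel) (by decide +kernel) (by decide +kernel)

end Cfsg.Agent.H679.Reg.JTwoDeg
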