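import Cfsg.Agent.H679.Reg.KiteC
import Cfsg.Agent.H679.Reg.JTwoDeg
import Cfsg.Agent.H678.DG.Rows

/-!
# `Kite` for the Hall-Janko group (S4919, KFOUR-C, helper679 for helper670)

Degrees 90 and 126.
-/

set_option autoImplicit false

namespace Cfsg.Agent.H679.Reg

open Cfsg Cfsg.Agent.H671.H5 Cfsg.Agent.H670.Reg Cfsg.Agent.H672.SporIM

universe u

/-- degrees of `J2` -/
theorem deg_j2 {S : Type u} [Group S] (h : Spor.IsoJ2 S) : IM 90 S ∧ IM 126 S := by
  obtain ⟨f⟩ := J2.HundredGens.J2_iso Cfsg.Agent.S1619.result.2.2.2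
  obtain ⟨e⟩ := h
  have h2 : HasDeg S 90 := HasDeg.of_equiv (e.trans f) H678.DG.JTwoDeg.deg_90
  have h3 : HasDeg S 126 := HasDeg.of_equiv (e.trans f) JTwoDeg.deg_126
  exact ⟨H678.DG.Rows.im_of_hasDeg h2, H678.DG.Rows.im_of_hasDeg h3⟩

theorem kite_j2 {S : Type u} [Group S] (h : Spor.IsoJ2 S) : Kite S := by
  obtain ⟨h1, h2⟩ := deg_j2 h
  exact Kite.mk 2 3 5 7 (by norm_num)
    (adj_of_im h1 (by norm_num) (by norm_num) (by norm_num) (by norm_num))
    (adj_of_im h1 (by norm_num) (by norm_num) (by norm_num) (by norm_num))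
    (adj_of_im h1 (by norm_num) (by norm_num) (by norm_num) (by norm_num))
    (adj_of_im h2 (by norm_num) (by norm_num) (by norm_num) (by norm_num))
    (adj_of_im h2 (by norm_num) (by norm_num) (by norm_num) (by norm_num))

end Cfsg.Agent.H679.Reg
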