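import Cfsg.Agent.H678.DG.Pts

/-!
# Degrees from an orbital, a second criterion (helper679)

`class_invariant'`, `deg_of_pts'` : the versions of `Orbital.class_invariant`, `Pts.deg_of_pts` (helper678) which use an element
of even order fixing the two base points.
-/

set_option autoImplicit false

namespace Cfsg.Agent.H679.Reg.Pts

open Cfsg Equiv Cfsg.Agent.SporadicA.PermTab Cfsg.Agent.H678.DG Cfsg.Agent.H678.DG.Pts
open Cfsg.Agent.H678.DG.Blk hiding chkW chkF chkB

universe u v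

section inv

variable {G : Type u} [Group G] {Y : Type v} [MulAction G Y] {M n : ℕ}

theorem class_invariant' (y : Fin M → Y) (hinj : Function.Injective y) (i₀ : Fin M)
    (hcl : ∀ g : G, ∀ i, ∃ j, g • y i = y j)
    (K : Subgroup G) (hK : ∀ g ∈ K, g • y i₀ = y i₀) (cls : Fin M → Fin n) (r : Fin n → Fin M)
    (htr : ∀ i, ∃ g ∈ K, g • y (r (cls i)) = y i) (c₁ : Fin n) (s : ℕ)
    (hs : Nat.card (MulAction.stabilizer G (y i₀)) = s) (kk : Fin n → ℕ)
    (hk : ∀ j, (Finset.univ.filter fun i => cls i = j).card = kk j)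
    (h₀ : G) (h01 : h₀ • y i₀ = y i₀) (h02 : h₀ • y (r c₁) = y (r c₁)) (h03 : 2 ∣ orderOf h₀)
    (hdiv : ∀ J : Finset (Fin n), c₁ ∈ J → (∑ j ∈ J, kk j) * 2 ∣ s → J = {c₁}) :
    ∀ g : G, g • y i₀ = y i₀ → ∀ k k', cls k = c₁ → g • y k = y k' → cls k' = c₁ := by
  classical
  intro g hg k k' hk1 hgk
  set S := MulAction.stabilizer G (y i₀) with hS
  let O : Finset (Fin M) := Finset.univ.filter fun i => ∃ h ∈ S, h • y k = y i
  let J : Finset (Fin n) := O.image cls
  have hmem : ∀ i, i ∈ O ↔ ∃ h ∈ S, h • y k = y i := fun i => by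
    show i ∈ Finset.univ.filter _ ↔ _
    rw [Finset.mem_filter]
    exact ⟨fun h => h.2, fun h => ⟨Finset.mem_univ _, h⟩⟩
  -- the orbit is a union of classes
  have hunion : ∀ i j, i ∈ O → cls i = cls j → j ∈ O := by
    intro i j hi hij
    rw [hmem] at hi ⊢
    obtain ⟨h, hh, h1⟩ := hi
    obtain ⟨g1, hg1, h2⟩ := htr i
    obtain ⟨g2, hg2, h3⟩ := htr j
    refine ⟨g2 * g1⁻¹ * h, ?_, ?_⟩
    · exact S.mul_mem (S.mul_mem (MulAction.mem_stabilizer_iff.2 (hK g2 hg2))
        (S.inv_mem (MulAction.mem_stabilizer_iff.2 (hK g1 hg1)))) hh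
    · rw [mul_smul, h1, mul_smul, ← h2, inv_smul_smul, hij, h3]
  have hO : O = J.biUnion fun j => Finset.univ.filter fun i => cls i = j := by
    ext i
    rw [Finset.mem_biUnion]
    constructor
    · intro hi
      exact ⟨cls i, Finset.mem_image_of_mem _ hi, by simp⟩
    · rintro ⟨j, hj, hi⟩
      obtain ⟨i', hi', rfl⟩ := Finset.mem_image.1 hj
      exact hunion i' i hi' (Finset.mem_filter.1 hi).2.symm
  have hcard : O.card = ∑ j ∈ J, kk j := by
    rw [hO, Finset.card_biUnion]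
    · exact Finset.sum_congr rfl fun j _ => hk j
    · intro j _ j' _ hjj
      show Disjoint (Finset.univ.filter fun i => cls i = j) (Finset.univ.filter fun i => cls i = j')
      rw [Finset.disjoint_left]
      intro i h1 h2
      exact hjj ((Finset.mem_filter.1 h1).2.symm.trans (Finset.mem_filter.1 h2).2)
  have horb : O.card * 2 ∣ s := by
    have h1 : O.card = (MulAction.orbit S (y k)).ncard := by
      have e : MulAction.orbit S (y k) = ((O.image y : Finset Y) : Set Y) := by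
        ext z
        rw [Finset.mem_coe, Finset.mem_image]
        constructor
        · rintro ⟨h, rfl⟩
          obtain ⟨i, hi⟩ := hcl (h : G) k
          exact ⟨i, (hmem i).2 ⟨h, h.2, hi⟩, hi.symm⟩
        · rintro ⟨i, hi, rfl⟩
          obtain ⟨h, hh, h2⟩ := (hmem i).1 hi
          exact ⟨⟨h, hh⟩, h2⟩
      rw [e, Set.ncard_coe_finset, Finset.card_image_of_injective _ hinj]
    rw [h1, ← hs, ← Nat.card_coe_set_eq, Nat.card_congr (MulAction.orbitEquivQuotientStabilizer S (y k)),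
      ← Subgroup.index_eq_card, ← Subgroup.index_mul_card (MulAction.stabilizer S (y k))]
    refine Nat.mul_dvd_mul_left _ ?_
    obtain ⟨g1, hg1, h2⟩ := htr k
    rw [hk1] at h2
    have h3 : g1 * h₀ * g1⁻¹ ∈ S := S.mul_mem (S.mul_mem (MulAction.mem_stabilizer_iff.2 (hK g1 hg1))
      (MulAction.mem_stabilizer_iff.2 h01)) (S.inv_mem (MulAction.mem_stabilizer_iff.2 (hK g1 hg1)))
    have h4 : (⟨g1 * h₀ * g1⁻¹, h3⟩ : S) ∈ MulAction.stabilizer S (y k) := by
      rw [MulAction.mem_stabilizer_iff]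
      change (g1 * h₀ * g1⁻¹) • y k = y k
      rw [← h2, mul_smul, inv_smul_smul, mul_smul, h02]
    have h5 : orderOf (⟨⟨g1 * h₀ * g1⁻¹, h3⟩, h4⟩ : MulAction.stabilizer S (y k)) = orderOf h₀ := by
      rw [← Subgroup.orderOf_coe, ← Subgroup.orderOf_coe]
      change orderOf (g1 * h₀ * g1⁻¹) = _
      exact orderOf_injective (MulAut.conj g1).toMonoidHom (MulAut.conj g1).injective h₀
    exact h03.trans (h5 ▸ orderOf_dvd_natCard _)
  have hc : c₁ ∈ J := Finset.mem_image.2 ⟨k, (hmem k).2 ⟨1, S.one_mem, one_smul _ _⟩, hk1⟩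
  have hJ := hdiv J hc (hcard ▸ horb)
  have h2 : cls k' ∈ J := Finset.mem_image_of_mem _ ((hmem k').2 ⟨g, MulAction.mem_stabilizer_iff.2 hg, hgk⟩)
  rw [hJ, Finset.mem_singleton] at h2
  exact h2

theorem even_orderOf {G : Type u} [Group G] {α : Type v} [MulAction G α] {g : G} {i : α} (h1 : g • i ≠ i)
    (h2 : g • g • i = i) : 2 ∣ orderOf g := by
  by_contra hodd
  have h3 : ∀ k : ℕ, g ^ (2 * k + 1) • i = g • i := by
    intro k
    induction k with
    | zero => rw [mul_zero, zero_add, pow_one]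
    | succ k ih =>
      rw [show 2 * (k + 1) + 1 = 2 + (2 * k + 1) by ring, pow_add, mul_smul, ih, pow_two, mul_smul, h2]
  obtain ⟨k, hk⟩ : ∃ k, orderOf g = 2 * k + 1 := ⟨orderOf g / 2, by omega⟩
  have h4 := h3 k
  rw [← hk, pow_orderOf_eq_one, one_smul] at h4
  exact h1 h4.symm

end inv

variable {G : Type u} [Group G] [Finite G] {M n : ℕ}

/-- **Degrees from a permutation representation**, with an element of even order. -/
theorem deg_of_pts' (φ : G →* Perm (Fin M)) {S : Type} (s : S → G) (A : S → ℕ → ℕ)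
    (hA : ∀ x (i : Fin M), ((φ (s x) i : Fin M) : ℕ) = A x i) {KW : List (List S)} {bs : List ℕ} {pr kk : ℕ → ℕ}
    {γ : ℕ → List S} {c₁ : ℕ} {B : ℕ → ℕ → ℕ} {st : ℕ} (hcard : Nat.card G = M * st)
    (hM : 0 < M) (hM' : M < 65536) (hlab0 : lab bs 0 = 0) (hn : 0 < n) (hc₁ : c₁ < n)
    (hBB : ∀ i < n, ∀ j < n, B i j < 65536)
    (h1 : allL (chkW A M bs) KW = true) (h2 : chkF A M bs KW pr = true) (h3 : chkK M n bs kk = true)
    (h4 : chkB A M n c₁ bs γ B = true)
    (hdiv : ∀ J : Finset (Fin n), ⟨c₁, hc₁⟩ ∈ J → (∑ j ∈ J, kk j) * 2 ∣ st → J = {⟨c₁, hc₁⟩})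
    (w₀ : List S) (x₀ : ℕ) (hx₀ : x₀ < M) (hw1 : av A w₀ 0 = 0) (hw2 : av A w₀ (rt bs c₁) = rt bs c₁)
    (hw3 : av A w₀ x₀ ≠ x₀) (hw4 : av A w₀ (av A w₀ x₀) = x₀)
    (a : Fin n → ℚ) (t : ℚ) (L : Fin n → Fin n → ℚ) (d : ℕ)
    (ha : a ⟨0, hn⟩ = 1) (hBa : ∀ i : Fin n, ∑ j : Fin n, (B i j : ℚ) * a j = t * a i)
    (hL : ∀ i j : Fin n, ∑ l : Fin n, L i l * ((B l j : ℚ) - if l = j then t else 0) =
      (if i = j then 1 else 0) - if j = ⟨0, hn⟩ then a i else 0)
    (hd : (d : ℚ) * ∑ j : Fin n, (kk j : ℚ) * (a j * a j) = M) :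
    ∃ χ : IrrCharacter G, charDegree (χ : G → ℂ) = d := by
  classical
  let act : MulAction G (Fin M) := MulAction.compHom (Fin M) φ
  have hsm : ∀ (g : G) (i : Fin M), g • i = φ g i := fun _ _ => rfl
  -- words
  have hw : ∀ (w : List S) (i : Fin M), (((w.map s).prod • i : Fin M) : ℕ) = av A w i := by
    intro w
    induction w with
    | nil => intro i; rw [List.map_nil, List.prod_nil, one_smul, av_nil]
    | cons x w ih =>
      intro i
      rw [List.map_cons, List.prod_cons, mul_smul, hsm (s x), hA, ih, av_cons]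
  unfold chkK at h3
  rw [band_eq_true, band_eq_true, allB_iff, allB_iff, allB_iff] at h3
  obtain ⟨h5a, h5b, h5c⟩ := h3
  have hlt : ∀ x < M, lab bs x < n := fun x hx => Nat.blt_eq ▸ h5a x hx
  have hrt : ∀ j < n, rt bs j < M := fun j hj => Nat.blt_eq ▸ h5b j hj
  let z : Fin M := ⟨0, hM⟩
  let K : Subgroup G :=
    { carrier := {g | g • z = z ∧ ∀ x : Fin M, lab bs (g • x : Fin M) = lab bs x}
      one_mem' := ⟨one_smul _ _, fun x => by rw [one_smul]⟩
      mul_mem' := by
        rintro a b ⟨h1, h2⟩ ⟨h3, h4⟩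
        exact ⟨by rw [mul_smul, h3, h1], fun x => by rw [mul_smul, h2, h4]⟩
      inv_mem' := by
        rintro a ⟨h1, h2⟩
        refine ⟨by rw [inv_smul_eq_iff, h1], fun x => ?_⟩
        have h3 := h2 (a⁻¹ • x)
        rw [smul_inv_smul] at h3
        exact h3.symm }
  have hK : ∀ g, g ∈ K ↔ g • z = z ∧ ∀ x : Fin M, lab bs (g • x : Fin M) = lab bs x := fun _ => Iff.rfl
  have hKW : ∀ w ∈ KW, (w.map s).prod ∈ K := by
    intro w hwK
    have h7 := (allL_iff _ _).1 h1 w hwK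
    unfold chkW at h7
    rw [band_eq_true] at h7
    rw [hK]
    refine ⟨Fin.ext ?_, fun x => ?_⟩
    · rw [hw]
      exact Nat.eq_of_beq_eq_true h7.1
    · rw [hw]
      exact Nat.eq_of_beq_eq_true ((allB_iff _ _).1 h7.2 x x.2)
  unfold chkF at h2
  rw [allB_iff] at h2
  have hreach : ∀ x, ∀ hx : x < M, ∃ g ∈ K, g • (⟨rt bs (lab bs x), hrt _ (hlt x hx)⟩ : Fin M) = ⟨x, hx⟩ := by
    intro x
    induction x using Nat.strong_induction_on with
    | _ x ih =>
      intro hx
      have h7 := h2 x hx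
      rw [bor_iff, forceB_eq, band_eq_true, band_eq_true, anyB_iff] at h7
      rcases h7 with h7 | ⟨h7, h8, w, hwK, h9⟩
      · refine ⟨1, K.one_mem, ?_⟩
        rw [one_smul]
        exact Fin.ext (Nat.eq_of_beq_eq_true h7)
      · have h10 : pr x < x := Nat.blt_eq ▸ h7
        obtain ⟨g, hg, hgx⟩ := ih _ h10 (h10.trans hx)
        refine ⟨(w.map s).prod * g, K.mul_mem (hKW w hwK) hg, ?_⟩
        have h11 : (⟨rt bs (lab bs x), hrt _ (hlt x hx)⟩ : Fin M) =
            ⟨rt bs (lab bs (pr x)), hrt _ (hlt _ (h10.trans hx))⟩ :=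
          Fin.ext (congrArg (rt bs) (Nat.eq_of_beq_eq_true h8).symm)
        rw [h11, mul_smul, hgx]
        refine Fin.ext ?_
        rw [hw]
        exact Nat.eq_of_beq_eq_true h9
  unfold chkB at h4
  rw [allB_iff] at h4
  have hγ : ∀ i (hi : i < n), ((γ i).map s).prod • z = ⟨rt bs i, hrt i hi⟩ := by
    intro i hi
    have h7 := h4 i hi
    rw [band_eq_true] at h7
    refine Fin.ext ?_
    rw [hw]
    exact Nat.eq_of_beq_eq_true h7.1
  have htrG : ∀ i : Fin M, ∃ g : G, g • z = i := by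
    intro i
    obtain ⟨g, -, hg⟩ := hreach i i.2
    exact ⟨g * ((γ (lab bs i)).map s).prod, by rw [mul_smul, hγ _ (hlt i i.2), hg]⟩
  have hst : Nat.card (MulAction.stabilizer G z) = st := by
    have h7 : Nat.card (MulAction.orbit G z) = M := by
      have h8 : MulAction.orbit G z = Set.univ := by
        ext i
        exact ⟨fun _ => trivial, fun _ => htrG i⟩
      rw [h8, Nat.card_coe_set_eq, Set.ncard_univ, Nat.card_eq_fintype_card, Fintype.card_fin]
    have h9 : Nat.card (MulAction.orbit G z) * Nat.card (MulAction.stabilizer G z) = Nat.card G := by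
      rw [Nat.card_congr (MulAction.orbitEquivQuotientStabilizer G z), ← Subgroup.index_eq_card, mul_comm,
        Subgroup.card_mul_index]
    rw [h7, hcard] at h9
    exact Nat.eq_of_mul_eq_mul_left hM h9
  have hkk : ∀ j : Fin n, (Finset.univ.filter fun i : Fin M => (⟨lab bs i, hlt i i.2⟩ : Fin n) = j).card = kk j := by
    intro j
    have h7 := (cntB_iff _ _ _).1 (h5c j j.2)
    rw [← h7, ← card_fin]
    congr 1
    ext i
    simp only [Finset.mem_filter, Finset.mem_univ, true_and, Fin.ext_iff]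
    exact ⟨fun h => by rw [h]; exact Nat.beq_refl _, Nat.eq_of_beq_eq_true⟩
  have htr : ∀ i : Fin M, ∃ g ∈ K, g • (⟨rt bs (lab bs i), hrt _ (hlt i i.2)⟩ : Fin M) = i := fun i => hreach i i.2
  refine Orbital.deg_of_orbital (G := G) (Y := Fin M) (M := M) (n := n) (fun x => x) (fun _ _ h => h) z
    (fun g i => ⟨g • i, rfl⟩) htrG K (fun g hg => ((hK g).1 hg).1) (fun x => ⟨lab bs x, hlt x x.2⟩)
    (fun j => ⟨rt bs j, hrt j j.2⟩) ?_ htr ⟨c₁, hc₁⟩ ?_ (fun i => ((γ i).map s).prod) (fun i => hγ i i.2)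
    (fun i k => ((γ i).map s).prod • k) (fun i k => rfl) (fun i j => B i j) ?_ (fun j => kk j) hkk ⟨0, hn⟩ ?_ a t L d
    ha hBa hL hd
  · intro g hg i j hij
    rw [← hij]
    exact Fin.ext (((hK g).1 hg).2 i)
  · refine class_invariant' (G := G) (Y := Fin M) (fun x => x) (fun _ _ h => h) z (fun g i => ⟨g • i, rfl⟩) K
      (fun g hg => ((hK g).1 hg).1) (fun x => ⟨lab bs x, hlt x x.2⟩) (fun j => ⟨rt bs j, hrt j j.2⟩) htr ⟨c₁, hc₁⟩ st hst
      (fun j => kk j) hkk (w₀.map s).prod ?_ ?_ ?_ hdiv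
    · exact Fin.ext ((hw w₀ z).trans hw1)
    · exact Fin.ext ((hw w₀ _).trans hw2)
    · refine even_orderOf (i := (⟨x₀, hx₀⟩ : Fin M)) ?_ ?_
      · intro h
        have h7 := congrArg Fin.val h
        rw [hw] at h7
        exact hw3 h7
      · refine Fin.ext ?_
        rw [hw, hw]
        exact hw4
  · intro i j
    have h7 := h4 i i.2
    rw [band_eq_true] at h7
    rw [← card_of_pk hM' (fun j hj => hBB i i.2 j hj) (fun k hk _ => ?_) h7.2 j j.2]
    · refine Finset.card_bij (fun k _ => (k : ℕ)) ?_ (fun k _ k' _ h => Fin.ext h) ?_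
      · intro k hk
        rw [Finset.mem_filter] at hk ⊢
        refine ⟨Finset.mem_range.2 k.2, ?_, ?_⟩
        · have h8 : lab bs k = c₁ := congrArg Fin.val hk.2.1
          rw [h8]
          exact Nat.beq_refl _
        · have h8 := congrArg Fin.val hk.2.2
          have h9 : lab bs (((((γ i).map s).prod • k : Fin M)) : ℕ) = j := h8
          rwa [hw] at h9
      · intro k hk
        rw [Finset.mem_filter, Finset.mem_range] at hk
        refine ⟨⟨k, hk.1⟩, ?_, rfl⟩
        rw [Finset.mem_filter]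
        refine ⟨Finset.mem_univ _, Fin.ext (Nat.eq_of_beq_eq_true hk.2.1), Fin.ext ?_⟩
        show lab bs (((((γ i).map s).prod • (⟨k, hk.1⟩ : Fin M) : Fin M)) : ℕ) = j
        rw [hw]
        exact hk.2.2
    · have h8 := hw (γ i) ⟨k, hk⟩
      rw [← h8]
      exact hlt _ (Fin.is_lt _)
  · exact Fin.ext hlab0

end Cfsg.Agent.H679.Reg.Pts
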